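import Cfsg.Agent.H141.Ux.Stmts

/-!
# UK2 (helper447, for helper141's UX, S5716)

`uk2 : H141.Ux.UK2` : two blocks `E`, `E'` of `y` in general position with `x` (linear case): the subspaces of `E + x E'` invariant
under `z` and `x z' x⁻¹` are trivial.
-/

set_option autoImplicit false

namespace Cfsg.Agent.H447.Ux

open Module Cfsg.Agent.H847.Bs Cfsg.Agent.H141.Ux

section

variable {F V : Type*} [Field F] [AddCommGroup V] [Module F V]

theorem inv_pow {y : V ≃ₗ[F] V} {Y : Submodule F V} (h : Inv y Y) (n : ℕ) : Inv (y ^ n) Y := by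
  induction n with
  | zero =>
    intro v hv
    rw [pow_zero]
    exact hv
  | succ n ih =>
    intro v hv
    rw [pow_succ]
    exact ih _ (h v hv)

theorem inv_of_mem [FiniteDimensional F V] {y z : V ≃ₗ[F] V} (hz : z ∈ Subgroup.zpowers y) {Y : Submodule F V}
    (h : Inv y Y) : Inv z Y := by
  obtain ⟨n, rfl⟩ := Subgroup.mem_zpowers_iff.1 hz
  obtain ⟨k, rfl | rfl⟩ := n.eq_nat_or_neg
  · rw [zpow_natCast]
    exact inv_pow h k
  · rw [zpow_neg, zpow_natCast]
    exact Cfsg.Agent.H440.Bs.Inv.inv (inv_pow h k)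

/-- an invariant subspace contains the block or lies in the complement -/
theorem le_or {z : V ≃ₗ[F] V} {E C : Submodule F V} (hc : IsCompl E C) (hE : Inv z E) (fix : ∀ v ∈ C, z v = v)
    (irr : ∀ W ≤ E, Inv z W → W = ⊥ ∨ W = E) (fpf : ∀ v ∈ E, z v = v → v = 0) {Y : Submodule F V} (hY : Inv z Y) :
    E ≤ Y ∨ Y ≤ C := by
  rcases irr (Y ⊓ E) inf_le_right (fun v hv => ⟨hY v hv.1, hE v hv.2⟩) with h | h
  · right
    intro v hv
    obtain ⟨a, ha, c, hc', rfl⟩ := Submodule.mem_sup.1 (hc.sup_eq_top ▸ Submodule.mem_top : v ∈ E ⊔ C)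
    have h1 : z a - a ∈ Y ⊓ E := by
      refine ⟨?_, E.sub_mem (hE a ha) ha⟩
      have h2 := Y.sub_mem (hY _ hv) hv
      rw [map_add, fix c hc', add_sub_add_right_eq_sub] at h2
      exact h2
    rw [h, Submodule.mem_bot, sub_eq_zero] at h1
    rw [fpf a ha h1, zero_add]
    exact hc'
  · left
    rw [← h]
    exact inf_le_left

theorem fix_iff {e : ℕ} {y z : V ≃ₗ[F] V} {E C : Submodule F V} (h : StL e y E C z) {v : V} :
    z v = v ↔ v ∈ C := by
  constructor
  · intro hv
    obtain ⟨a, ha, c, hc', rfl⟩ := Submodule.mem_sup.1 (h.compl.sup_eq_top ▸ Submodule.mem_top : v ∈ E ⊔ C)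
    rw [map_add, h.fix c hc', add_left_inj] at hv
    rw [h.fpf a ha hv, zero_add]
    exact hc'
  · exact h.fix v

/-- the other block lies in the complement -/
theorem block_le [FiniteDimensional F V] {e d : ℕ} {y z z' : V ≃ₗ[F] V} {E C E' C' : Submodule F V} (hed : e ≠ d)
    (h : StL e y E C z) (h' : StL d y E' C' z') : E' ≤ C := by
  have hE : Inv z E := inv_of_mem h.mem h.inv
  have hE' : Inv z E' := inv_of_mem h.mem h'.inv
  have hE'' : Inv z' E' := inv_of_mem h'.mem h'.inv
  have hcomm : z * z' = z' * z := by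
    obtain ⟨n, rfl⟩ := Subgroup.mem_zpowers_iff.1 h.mem
    obtain ⟨k, rfl⟩ := Subgroup.mem_zpowers_iff.1 h'.mem
    exact ((Commute.refl y).zpow_zpow n k).eq
  have hc : ∀ v, z (z' v) = z' (z v) := fun v => LinearEquiv.congr_fun hcomm v
  rcases h'.irr (E' ⊓ C) inf_le_left (fun v hv => ⟨hE'' v hv.1, (fix_iff h).1 (by
    rw [hc, h.fix v hv.2])⟩) with h1 | h1
  · -- `z - 1` is injective on `E'`
    have h2 : (E'.map ((z : V →ₗ[F] V) - LinearMap.id)) = E' := by
      apply Submodule.eq_of_le_of_finrank_eq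
      · rintro _ ⟨v, hv, rfl⟩
        exact E'.sub_mem (hE' v hv) hv
      · have h3 : Function.Injective (((z : V →ₗ[F] V) - LinearMap.id).domRestrict E') := by
          rw [← LinearMap.ker_eq_bot, LinearMap.ker_eq_bot']
          rintro ⟨v, hv⟩ hv'
          have h4 : z v - v = 0 := hv'
          have h5 : v ∈ E' ⊓ C := ⟨hv, (fix_iff h).1 (sub_eq_zero.1 h4)⟩
          rw [h1, Submodule.mem_bot] at h5
          exact Subtype.ext h5
        have h4 := LinearMap.finrank_range_of_inj h3
        rw [LinearMap.range_domRestrict] at h4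
        exact h4
    have h3 : E' ≤ E := by
      rw [← h2]
      rintro _ ⟨v, hv, rfl⟩
      obtain ⟨a, ha, c, hc', rfl⟩ := Submodule.mem_sup.1 (h.compl.sup_eq_top ▸ Submodule.mem_top : v ∈ E ⊔ C)
      show z (a + c) - (a + c) ∈ E
      rw [map_add, h.fix c hc', add_sub_add_right_eq_sub]
      exact E.sub_mem (hE a ha) ha
    rcases h.irr E' h3 hE' with h4 | h4
    · rw [h4]
      exact bot_le
    · exact absurd (h.dim.symm.trans (h4 ▸ h'.dim)) hed
  · rw [← h1]
    exact inf_le_right

/-- **UK2** -/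
theorem uk2 : UK2 := by
  intro F V _ _ _ _ _ e d x y z z' E C E' C' hed h h'
  have h1 := block_le hed h h'
  have h2 := block_le hed.symm h' h
  have hC : C = E' ⊔ (C ⊓ C') := by
    have h3 := sup_inf_assoc_of_le C' h1
    rw [sup_comm, h'.compl.symm.sup_eq_top, top_inf_eq, inf_comm C' C] at h3
    exact h3
  have hC' : C' = E ⊔ (C ⊓ C') := by
    have h3 := sup_inf_assoc_of_le C h2
    rw [sup_comm, h.compl.symm.sup_eq_top, top_inf_eq] at h3
    exact h3
  refine ⟨⟨?_, ?_, hC, hC'⟩, ?_⟩
  · exact h.compl.disjoint.mono_right h1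
  · constructor
    · rw [disjoint_iff, ← inf_assoc, sup_comm E E', sup_inf_assoc_of_le E h1, h.compl.inf_eq_bot, sup_bot_eq]
      exact h'.compl.inf_eq_bot
    · rw [codisjoint_iff, sup_assoc, ← hC]
      exact h.compl.sup_eq_top
  · intro hg Y hY hz hz1
    have hE := inv_of_mem h.mem h.inv
    have hE' := inv_of_mem h'.mem h'.inv
    have h3 := le_or h.compl hE h.fix h.irr h.fpf hz
    have h4 : E'.map (x : V →ₗ[F] V) ≤ Y ∨ Y ≤ C'.map (x : V →ₗ[F] V) := by
      rcases le_or h'.compl hE' h'.fix h'.irr h'.fpf (Y := Y.comap (x : V →ₗ[F] V)) (fun v hv => by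
        show x (z' v) ∈ Y
        have h5 := hz1 (x v) hv
        have h6 : (x * z' * x⁻¹) (x v) = x (z' v) := by
          show x (z' (x⁻¹ (x v))) = x (z' v)
          rw [show x⁻¹ (x v) = v from x.symm_apply_apply v]
        rw [h6] at h5
        exact h5) with h5 | h5
      · left
        rw [Submodule.map_le_iff_le_comap]
        exact h5
      · right
        intro v hv
        refine ⟨x.symm v, h5 ?_, x.apply_symm_apply v⟩
        show x (x.symm v) ∈ Y
        rw [x.apply_symm_apply]
        exact hv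
    rcases h3 with h3 | h3
    · rcases h4 with h4 | h4
      · right
        exact le_antisymm hY (sup_le h3 h4)
      · exfalso
        obtain ⟨b, hb, hb'⟩ := hg.b
        apply hb'
        rw [← hC']
        exact h4 (h3 hb)
    · rcases h4 with h4 | h4
      · exfalso
        obtain ⟨a, ha, ha'⟩ := hg.a
        apply ha'
        rw [← hC]
        exact h3 (h4 ⟨a, ha, rfl⟩)
      · left
        have h5 := hg.compl.disjoint
        rw [← hC, ← hC'] at h5
        exact h5 hY (le_inf h3 h4) |> fun h => le_bot_iff.1 h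

end

end Cfsg.Agent.H447.Ux
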